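import Cfsg.Agent.Lib.Helper10.AbAlt.Defs

set_option autoImplicit false
set_option linter.unusedSectionVars false
open Equiv Equiv.Perm
open scoped Pointwise

namespace Cfsg.Agent.Lib.Helper54.AbAlt

open Cfsg.Agent.Lib.Helper10.AbAlt

variable {α : Type*} [DecidableEq α] [Fintype α]

theorem Al_eq_map_CARD (T : Finset α) :
    Al T = (alternatingGroup {x // x ∈ T}).map (ofSubtype (p := fun x => x ∈ T)) := by
  ext a
  rw [mem_Al, Subgroup.mem_map]
  constructor
  · rintro ⟨h1, h2⟩
    have hiff : ∀ x, a x ∈ T ↔ x ∈ T := by
      intro x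
      constructor
      · intro hx
        by_contra hxT
        rw [h1 x hxT] at hx
        exact hxT hx
      · intro hx
        by_contra haT
        have := h1 (a x) haT
        rw [a.injective this] at haT
        exact haT hx
    have hof : ofSubtype (a.subtypePerm hiff) = a :=
      ofSubtype_subtypePerm hiff (fun x hx => by
        by_contra hxT
        exact hx (h1 x hxT))
    refine ⟨a.subtypePerm hiff, ?_, hof⟩
    rw [Equiv.Perm.mem_alternatingGroup, ← sign_ofSubtype, hof, h2]
  · rintro ⟨f, hf, rfl⟩
    refine ⟨fun x hx => ofSubtype_apply_of_not_mem f hx, ?_⟩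
    rw [sign_ofSubtype]
    exact Equiv.Perm.mem_alternatingGroup.mp hf

theorem two_mul_card_Al (T : Finset α) (hT : 2 ≤ T.card) :
    2 * Nat.card (Al T) = T.card.factorial := by
  rw [Al_eq_map_CARD, Subgroup.card_map_of_injective ofSubtype_injective]
  haveI : Nontrivial {x // x ∈ T} := by
    rw [← Fintype.one_lt_card_iff_nontrivial, Fintype.card_coe]
    omega
  rw [two_mul_nat_card_alternatingGroup, Nat.card_eq_fintype_card, Fintype.card_perm,
    Fintype.card_coe]

theorem prime_CARD {T : Finset α} (hT : T.card = 3 ∨ T.card = 4 ∨ T.card = 5) :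
    ∃ p : ℕ, p.Prime ∧ T.card = p ^ (Nat.card (Al T)).factorization p := by
  have h := two_mul_card_Al T (by omega)
  rcases hT with h3 | h4 | h5
  · rw [h3] at h
    have hc : Nat.card (Al T) = 3 := by
      have : Nat.factorial 3 = 6 := by decide
      omega
    refine ⟨3, Nat.prime_three, ?_⟩
    rw [hc, h3, Nat.factorization_def _ Nat.prime_three]
    decide +kernel
  · rw [h4] at h
    have hc : Nat.card (Al T) = 12 := by
      have : Nat.factorial 4 = 24 := by decide
      omega
    refine ⟨2, Nat.prime_two, ?_⟩
    rw [hc, h4, Nat.factorization_def _ Nat.prime_two]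
    decide +kernel
  · rw [h5] at h
    have hc : Nat.card (Al T) = 60 := by
      have : Nat.factorial 5 = 120 := by decide
      omega
    refine ⟨5, Nat.prime_five, ?_⟩
    rw [hc, h5, Nat.factorization_def _ Nat.prime_five]
    decide +kernel

end Cfsg.Agent.Lib.Helper54.AbAlt
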