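import Cfsg.Agent.Lib.Helper10.AbAlt.Defs
import Cfsg.Agent.Lib.Helper54.AbAlt.CARD

set_option autoImplicit false
set_option linter.unusedSectionVars false
open Equiv Equiv.Perm
open scoped Pointwise

namespace Cfsg.Agent.Lib.Helper54.AbAlt

open Cfsg.Agent.Lib.Helper10.AbAlt

variable {α : Type*} [DecidableEq α] [Fintype α]

theorem conj_small {T : Finset α} (hT : T.card = 3 ∨ T.card = 4 ∨ T.card = 5)
    {R R' : Subgroup (Perm α)}
    (hR : R ≤ Al T) (hR' : R' ≤ Al T) (hc : Nat.card R = T.card) (hc' : Nat.card R' = T.card) :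
    ∃ τ ∈ Al T, MulAut.conj τ • R = R' := by
  obtain ⟨p, hp, hpT⟩ := prime_CARD hT
  haveI : Fact p.Prime := ⟨hp⟩
  have h1 : Nat.card (R.subgroupOf (Al T)) = p ^ (Nat.card (Al T)).factorization p := by
    rw [Nat.card_congr (Subgroup.subgroupOfEquivOfLe hR).toEquiv, hc, hpT]
  have h2 : Nat.card (R'.subgroupOf (Al T)) = p ^ (Nat.card (Al T)).factorization p := by
    rw [Nat.card_congr (Subgroup.subgroupOfEquivOfLe hR').toEquiv, hc', hpT]
  obtain ⟨g, hg⟩ := MulAction.exists_smul_eq (Al T) (Sylow.ofCard _ h1) (Sylow.ofCard _ h2)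
  have key : ∀ x : Al T, x ∈ R'.subgroupOf (Al T) ↔ g⁻¹ * x * g ∈ R.subgroupOf (Al T) := by
    intro x
    have e1 : ((g • Sylow.ofCard _ h1 : Sylow p (Al T)) : Subgroup (Al T))
        = R'.subgroupOf (Al T) := by
      rw [hg]
      rfl
    rw [← e1, Sylow.coe_subgroup_smul, Subgroup.mem_pointwise_smul_iff_inv_smul_mem]
    have e2 : (MulAut.conj g)⁻¹ • x = g⁻¹ * x * g := by
      simp [MulAut.smul_def]
    rw [e2]
    rfl
  refine ⟨g.1, g.2, ?_⟩
  ext a
  rw [Subgroup.mem_pointwise_smul_iff_inv_smul_mem]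
  have e3 : (MulAut.conj g.1)⁻¹ • a = g.1⁻¹ * a * g.1 := by
    simp [MulAut.smul_def]
  rw [e3]
  constructor
  · intro h
    have haH : a ∈ Al T := by
      have : a = g.1 * (g.1⁻¹ * a * g.1) * g.1⁻¹ := by group
      rw [this]
      exact (Al T).mul_mem ((Al T).mul_mem g.2 (hR h)) ((Al T).inv_mem g.2)
    exact Subgroup.mem_subgroupOf.mp ((key ⟨a, haH⟩).mpr (Subgroup.mem_subgroupOf.mpr h))
  · intro h
    exact Subgroup.mem_subgroupOf.mp ((key ⟨a, hR' h⟩).mp (Subgroup.mem_subgroupOf.mpr h))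

end Cfsg.Agent.Lib.Helper54.AbAlt
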