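import Cfsg.Agent.Lib.Helper10.AbAlt.Defs
import Cfsg.Agent.Lib.Helper54.AbAlt.CARD

set_option autoImplicit false
set_option linter.unusedSectionVars false
open Equiv Equiv.Perm
open scoped Pointwise

namespace Cfsg.Agent.Lib.Helper54.AbAlt

open Cfsg.Agent.Lib.Helper10.AbAlt

theorem comm_of_card_EXS {G : Type*} [Group G]
    (h : Nat.card G = 3 ∨ Nat.card G = 4 ∨ Nat.card G = 5) : ∀ a b : G, a * b = b * a := by
  rcases h with h | h | h
  · haveI : Fact (Nat.Prime 3) := ⟨Nat.prime_three⟩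
    haveI := isCyclic_of_prime_card h
    exact fun a b => (IsCyclic.commGroup (α := G)).mul_comm a b
  · haveI := IsPGroup.isMulCommutative_of_card_eq_prime_sq (p := 2) (G := G) (by rw [h]; norm_num)
    exact fun a b => mul_comm' a b
  · haveI : Fact (Nat.Prime 5) := ⟨Nat.prime_five⟩
    haveI := isCyclic_of_prime_card h
    exact fun a b => (IsCyclic.commGroup (α := G)).mul_comm a b

variable {α : Type*} [DecidableEq α] [Fintype α]

theorem exists_small {T : Finset α} (hT : T.card = 3 ∨ T.card = 4 ∨ T.card = 5) :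
    ∃ R : Subgroup (Perm α), R ≤ Al T ∧ Ab R ∧ Nat.card R = T.card := by
  obtain ⟨p, hp, hpT⟩ := prime_CARD hT
  haveI : Fact p.Prime := ⟨hp⟩
  obtain ⟨P⟩ : Nonempty (Sylow p (Al T)) := inferInstance
  have hcP : Nat.card (P : Subgroup (Al T)) = T.card := by
    rw [P.card_eq_multiplicity, ← hpT]
  refine ⟨(P : Subgroup (Al T)).map (Al T).subtype, Subgroup.map_subtype_le _, ?_, ?_⟩
  · intro a ha b hb
    obtain ⟨a', ha', rfl⟩ := Subgroup.mem_map.mp ha
    obtain ⟨b', hb', rfl⟩ := Subgroup.mem_map.mp hb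
    have := comm_of_card_EXS (G := (P : Subgroup (Al T))) (by rw [hcP]; exact hT)
      ⟨a', ha'⟩ ⟨b', hb'⟩
    have h2 : a' * b' = b' * a' := congrArg Subtype.val this
    exact congrArg Subtype.val h2
  · rw [Subgroup.card_map_of_injective (Subgroup.subtype_injective _), hcP]

end Cfsg.Agent.Lib.Helper54.AbAlt
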