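import Cfsg.Agent.Lib.Helper10.AbAlt.Defs

set_option autoImplicit false
set_option linter.unusedSectionVars false
open Equiv Equiv.Perm
open scoped Pointwise

namespace Cfsg.Agent.Lib.Helper54.AbAlt

open Cfsg.Agent.Lib.Helper10.AbAlt

variable {α : Type*} [DecidableEq α] [Fintype α]

/-- a subset of `S` seen inside the subtype -/
def eqvMOVE {S T : Finset α} (hT : T ⊆ S) : {x : {x // x ∈ S} // x.1 ∈ T} ≃ {x // x ∈ T} where
  toFun x := ⟨x.1.1, x.2⟩
  invFun x := ⟨⟨x.1, hT x.2⟩, x.2⟩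
  left_inv _ := rfl
  right_inv _ := rfl

theorem exists_move {S T T' : Finset α} (hT : T ⊆ S) (hT' : T' ⊆ S) (hc : T.card = T'.card) :
    ∃ ρ ∈ Sy S, ∀ y, y ∈ T ↔ ρ y ∈ T' := by
  let e : {x : {x // x ∈ S} // x.1 ∈ T} ≃ {x : {x // x ∈ S} // x.1 ∈ T'} :=
    (eqvMOVE hT).trans ((Finset.equivOfCardEq hc).trans (eqvMOVE hT').symm)
  refine ⟨ofSubtype e.extendSubtype, fun x hx => ofSubtype_apply_of_not_mem _ hx, fun y => ?_⟩
  by_cases hy : y ∈ S
  · rw [ofSubtype_apply_of_mem _ hy]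
    constructor
    · intro h
      exact e.extendSubtype_mem ⟨y, hy⟩ h
    · intro h
      by_contra hn
      exact e.extendSubtype_not_mem ⟨y, hy⟩ hn h
  · rw [ofSubtype_apply_of_not_mem _ hy]
    exact ⟨fun h => absurd (hT h) hy, fun h => absurd (hT' h) hy⟩

end Cfsg.Agent.Lib.Helper54.AbAlt
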